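import Mathlib
import Cfsg.Agent.Lib.Helper49.SAF.Iface

/-!
# SAF project (S4025): package [BR] (bridge: Burnside fusion in the normalizer of an abelian
Sylow subgroup)
-/

set_option autoImplicit false

universe v

namespace Cfsg.Agent.Lib.Helper62.SAF

open Cfsg.Agent.Lib.Helper49.SAFI

/-- Burnside's fusion argument: if `A' , B' ≤ P` (an abelian Sylow `p`-subgroup) and
`B' = g A' g⁻¹`, then `B' = m A' m⁻¹` for some `m` in the normalizer of `P`. -/
theorem burnside_fusion {G : Type v} [Group G] [Finite G] {p : ℕ} [Fact p.Prime] (P : Sylow p G)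
    (hcP : ∀ a ∈ (P : Subgroup G), ∀ b ∈ (P : Subgroup G), a * b = b * a)
    (A' B' : Subgroup G) (hA'P : A' ≤ P) (hB'P : B' ≤ P) (g : G)
    (hg : B' = A'.map (MulAut.conj g).toMonoidHom) :
    ∃ m ∈ Subgroup.normalizer ((P : Subgroup G) : Set G),
      (∀ a ∈ A', m * a * m⁻¹ ∈ B') ∧ ∀ b ∈ B', ∃ a ∈ A', m * a * m⁻¹ = b := by
  have hmemB : ∀ a ∈ A', g * a * g⁻¹ ∈ B' := by
    intro a ha
    rw [hg]
    exact ⟨a, ha, rfl⟩
  have hexB : ∀ b ∈ B', ∃ a ∈ A', g * a * g⁻¹ = b := by
    intro b hb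
    rw [hg] at hb
    obtain ⟨a, ha, hab⟩ := hb
    exact ⟨a, ha, hab⟩
  have hPC : (P : Subgroup G) ≤ Subgroup.centralizer (B' : Set G) := by
    intro x hx
    rw [Subgroup.mem_centralizer_iff]
    intro b hb
    exact hcP b (hB'P hb) x hx
  have hgPC : ((g • P : Sylow p G) : Subgroup G) ≤ Subgroup.centralizer (B' : Set G) := by
    intro y hy
    rw [Sylow.coe_subgroup_smul] at hy
    obtain ⟨x, hx, hxy⟩ := (Subgroup.mem_smul_pointwise_iff_exists y (MulAut.conj g) _).mp hy
    have hxy' : g * x * g⁻¹ = y := hxy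
    rw [Subgroup.mem_centralizer_iff]
    intro b hb
    obtain ⟨a, ha, hab⟩ := hexB b hb
    have hax : a * x = x * a := hcP a (hA'P ha) x hx
    rw [← hab, ← hxy']
    calc g * a * g⁻¹ * (g * x * g⁻¹) = g * (a * x) * g⁻¹ := by group
      _ = g * (x * a) * g⁻¹ := by rw [hax]
      _ = g * x * g⁻¹ * (g * a * g⁻¹) := by group
  obtain ⟨c, hc⟩ := MulAction.exists_smul_eq (↥(Subgroup.centralizer (B' : Set G)))
    ((g • P).subtype hgPC) (P.subtype hPC)
  rw [Sylow.smul_subtype] at hc
  have hc2 : c • (g • P) = P := Sylow.subtype_injective hc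
  have hc3 : ((c : G) * g) • P = P := by
    rw [mul_smul]
    exact hc2
  have hm : (c : G) * g ∈ Subgroup.normalizer ((P : Subgroup G) : Set G) :=
    Sylow.smul_eq_iff_mem_normalizer.mp hc3
  have hcc : ∀ b ∈ B', (c : G) * b * (c : G)⁻¹ = b := by
    intro b hb
    have h1 : b * (c : G) = (c : G) * b := Subgroup.mem_centralizer_iff.mp c.2 b hb
    rw [← h1]; group
  refine ⟨(c : G) * g, hm, ?_, ?_⟩
  · intro a ha
    have h1 : (c : G) * g * a * ((c : G) * g)⁻¹ = (c : G) * (g * a * g⁻¹) * (c : G)⁻¹ := by group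
    rw [h1, hcc _ (hmemB a ha)]
    exact hmemB a ha
  · intro b hb
    obtain ⟨a, ha, hab⟩ := hexB b hb
    refine ⟨a, ha, ?_⟩
    have h1 : (c : G) * g * a * ((c : G) * g)⁻¹ = (c : G) * (g * a * g⁻¹) * (c : G)⁻¹ := by group
    rw [h1, hab, hcc b hb]

/-- [BR] bridge from the hypotheses of S4025. -/
theorem pkgBr : PkgBr.{v} := by
  intro G _ _ p _ hC P n hel hcard
  have hp : p.Prime := Fact.out
  obtain ⟨hcommP, hexpP⟩ := hel
  have hcP : ∀ a ∈ (P : Subgroup G), ∀ b ∈ (P : Subgroup G), a * b = b * a := by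
    intro a ha b hb
    have := isMulCommutative_iff.mp hcommP ⟨a, ha⟩ ⟨b, hb⟩
    exact congrArg Subtype.val this
  have hPN : (P : Subgroup G) ≤ Subgroup.normalizer ((P : Subgroup G) : Set G) :=
    Subgroup.le_normalizer
  have hcardQ : Nat.card ↥((P : Subgroup G).subgroupOf
      (Subgroup.normalizer ((P : Subgroup G) : Set G))) = p ^ n := by
    rw [Nat.card_congr (Subgroup.subgroupOfEquivOfLe hPN).toEquiv]
    exact hcard
  refine { normal := ?_, pgroup := ?_, cop := ?_, comm := ?_, exp := ?_, card := hcardQ,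
           conj := ?_ }
  · exact Subgroup.normal_in_normalizer
  · exact P.isPGroup'.of_injective (Subgroup.subgroupOfEquivOfLe hPN).toMonoidHom
      (Subgroup.subgroupOfEquivOfLe hPN).injective
  · rw [hcardQ]
    have h1 : ((P : Subgroup G).subgroupOf
        (Subgroup.normalizer ((P : Subgroup G) : Set G))).index ∣ (P : Subgroup G).index :=
      Subgroup.relIndex_dvd_index_of_le hPN
    have h2 : ¬ p ∣ (P : Subgroup G).index := P.not_dvd_index
    apply Nat.Coprime.pow_left
    rw [Nat.Prime.coprime_iff_not_dvd hp]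
    exact fun h => h2 (h.trans h1)
  · intro x hx y hy
    apply Subtype.ext
    exact hcP x.1 hx y.1 hy
  · intro x hx
    apply Subtype.ext
    exact hexpP x.1 hx
  · intro A B hA hB hAB
    have hinj : Function.Injective
        (Subgroup.normalizer ((P : Subgroup G) : Set G)).subtype := Subtype.coe_injective
    have hA'P : A.map (Subgroup.normalizer ((P : Subgroup G) : Set G)).subtype ≤ P := by
      rintro _ ⟨a, ha, rfl⟩
      exact hA ha
    have hB'P : B.map (Subgroup.normalizer ((P : Subgroup G) : Set G)).subtype ≤ P := by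
      rintro _ ⟨b, hb, rfl⟩
      exact hB hb
    have hcard' : Nat.card ↥(A.map (Subgroup.normalizer ((P : Subgroup G) : Set G)).subtype) =
        Nat.card ↥(B.map (Subgroup.normalizer ((P : Subgroup G) : Set G)).subtype) := by
      rw [← Nat.card_congr (Subgroup.equivMapOfInjective A _ hinj).toEquiv,
        ← Nat.card_congr (Subgroup.equivMapOfInjective B _ hinj).toEquiv]
      exact hAB
    obtain ⟨g, hg⟩ := hC _ _ (P.isPGroup'.to_le hA'P) (P.isPGroup'.to_le hB'P) hcard'
    obtain ⟨m, hm, h1, h2⟩ := burnside_fusion P hcP _ _ hA'P hB'P g hg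
    refine ⟨⟨m, hm⟩, ?_⟩
    ext b
    constructor
    · intro hb
      obtain ⟨a', ha', hab⟩ := h2 (b : G) ⟨b, hb, rfl⟩
      obtain ⟨a, ha, rfl⟩ := ha'
      refine ⟨a, ha, ?_⟩
      apply Subtype.ext
      exact hab
    · rintro ⟨a, ha, rfl⟩
      have h3 := h1 (a : G) ⟨a, ha, rfl⟩
      obtain ⟨b₂, hb₂, hbb⟩ := h3
      have h4 : b₂ = (MulAut.conj (⟨m, hm⟩ : ↥(Subgroup.normalizer
          ((P : Subgroup G) : Set G)))).toMonoidHom a := by
        apply Subtype.ext
        exact hbb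
      rw [← h4]
      exact hb₂

end Cfsg.Agent.Lib.Helper62.SAF
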