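import Mathlib
import Cfsg.Agent.Lib.Helper49.SAF.Iface

/-!
# SAF project (S4025): package [LTR] (translation of the conjugacy hypothesis)
-/

set_option autoImplicit false

universe u v

namespace Cfsg.Agent.Lib.Helper62.SAF

open Cfsg.Agent.Lib.Helper49.SAFI

section

variable {p : ℕ} {N : Type v} [Group N] (Q : Subgroup N) {V : Type u} [AddCommGroup V]
  [Module (ZMod p) V] (ψ : Q ≃ V)

theorem psi_one (hadd : ∀ x y : Q, ψ (x * y) = ψ x + ψ y) : ψ 1 = 0 := by
  have h := hadd 1 1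
  rw [mul_one] at h
  exact left_eq_add.mp h

theorem psi_inv (hadd : ∀ x y : Q, ψ (x * y) = ψ x + ψ y) (x : Q) : ψ x⁻¹ = -ψ x := by
  have h := hadd x x⁻¹
  rw [mul_inv_cancel, psi_one Q ψ hadd] at h
  exact eq_neg_of_add_eq_zero_right h.symm

theorem psi_pow (hadd : ∀ x y : Q, ψ (x * y) = ψ x + ψ y) (x : Q) (k : ℕ) :
    ψ (x ^ k) = k • ψ x := by
  induction k with
  | zero => rw [pow_zero, zero_smul]; exact psi_one Q ψ hadd
  | succ k ih => rw [pow_succ, hadd, ih, succ_nsmul]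

/-- the subgroup of `Q` corresponding to an additive subgroup of `V` -/
def pullQ (hadd : ∀ x y : Q, ψ (x * y) = ψ x + ψ y) (A : AddSubgroup V) : Subgroup Q where
  carrier := {x | ψ x ∈ A}
  mul_mem' := by
    intro a b ha hb
    show ψ (a * b) ∈ A
    rw [hadd]
    exact A.add_mem ha hb
  one_mem' := by
    show ψ 1 ∈ A
    rw [psi_one Q ψ hadd]
    exact A.zero_mem
  inv_mem' := by
    intro a ha
    show ψ a⁻¹ ∈ A
    rw [psi_inv Q ψ hadd]
    exact A.neg_mem ha

theorem mem_pullQ (hadd : ∀ x y : Q, ψ (x * y) = ψ x + ψ y) (A : AddSubgroup V) (x : Q) :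
    x ∈ pullQ Q ψ hadd A ↔ ψ x ∈ A := Iff.rfl

theorem card_pullQ (hadd : ∀ x y : Q, ψ (x * y) = ψ x + ψ y) (A : AddSubgroup V) :
    Nat.card ↥((pullQ Q ψ hadd A).map Q.subtype) = Nat.card A := by
  rw [← Nat.card_congr (Subgroup.equivMapOfInjective (pullQ Q ψ hadd A) Q.subtype
    Subtype.coe_injective).toEquiv]
  exact Nat.card_congr (Equiv.subtypeEquiv ψ (fun x => Iff.rfl))

end

/-- [LTR] translation of the conjugacy hypothesis. -/
theorem pkgLtr : PkgLtr.{u, v} := by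
  intro p n _ N _ _ Q V _ _ ψ ρ hS hL
  have hp : p.Prime := Fact.out
  obtain ⟨hadd, hρ⟩ := hL
  have hnorm := hS.normal
  refine ⟨?_, ?_, ?_⟩
  · -- Trans1
    intro v w hv hw
    obtain ⟨x, rfl⟩ := ψ.surjective v
    obtain ⟨y, rfl⟩ := ψ.surjective w
    have hx1 : (x : N) ≠ 1 := by
      intro h
      apply hv
      have : x = 1 := Subtype.ext h
      rw [this]; exact psi_one Q ψ hadd
    have hy1 : (y : N) ≠ 1 := by
      intro h
      apply hw
      have : y = 1 := Subtype.ext h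
      rw [this]; exact psi_one Q ψ hadd
    have hox : orderOf (x : N) = p := orderOf_eq_prime (hS.exp x.1 x.2) hx1
    have hoy : orderOf (y : N) = p := orderOf_eq_prime (hS.exp y.1 y.2) hy1
    have hcx : Nat.card (Subgroup.zpowers (x : N)) = p := by rw [Nat.card_zpowers, hox]
    have hcy : Nat.card (Subgroup.zpowers (y : N)) = p := by rw [Nat.card_zpowers, hoy]
    have hxQ : Subgroup.zpowers (x : N) ≤ Q := by
      rw [Subgroup.zpowers_le]; exact x.2
    have hyQ : Subgroup.zpowers (y : N) ≤ Q := by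
      rw [Subgroup.zpowers_le]; exact y.2
    obtain ⟨g, hg⟩ := hS.conj _ _ hxQ hyQ (hcx.trans hcy.symm)
    have hmem : g * (x : N) * g⁻¹ ∈ Subgroup.zpowers (y : N) := by
      rw [hg]
      exact ⟨(x : N), Subgroup.mem_zpowers _, rfl⟩
    rw [← mem_powers_iff_mem_zpowers, Submonoid.mem_powers_iff] at hmem
    obtain ⟨k, hk⟩ := hmem
    refine ⟨g, (k : ZMod p), ?_⟩
    have hQ' : g * (x : N) * g⁻¹ ∈ Q := hnorm.conj_mem _ x.2 g
    rw [hρ g x hQ']
    have e1 : (⟨g * (x : N) * g⁻¹, hQ'⟩ : Q) = y ^ k := by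
      apply Subtype.ext
      rw [Subgroup.coe_pow]
      exact hk.symm
    rw [e1, psi_pow Q ψ hadd, Nat.cast_smul_eq_nsmul]
  · -- Trans2
    intro A B hA hB
    have hcard : Nat.card ↥((pullQ Q ψ hadd A).map Q.subtype) =
        Nat.card ↥((pullQ Q ψ hadd B).map Q.subtype) := by
      rw [card_pullQ, card_pullQ, hA, hB]
    obtain ⟨g, hg⟩ := hS.conj _ _ (Subgroup.map_subtype_le _) (Subgroup.map_subtype_le _) hcard
    refine ⟨g, ?_⟩
    intro v
    obtain ⟨x, rfl⟩ := ψ.surjective v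
    have hQ' : g * (x : N) * g⁻¹ ∈ Q := hnorm.conj_mem _ x.2 g
    rw [hρ g x hQ']
    constructor
    · intro hxA
      have h1 : g * (x : N) * g⁻¹ ∈ (pullQ Q ψ hadd B).map Q.subtype := by
        rw [hg]
        exact ⟨(x : N), ⟨x, hxA, rfl⟩, rfl⟩
      obtain ⟨y, hy, hyx⟩ := h1
      have e1 : y = ⟨g * (x : N) * g⁻¹, hQ'⟩ := Subtype.ext hyx
      rw [← e1]
      exact hy
    · intro hB'
      have h1 : g * (x : N) * g⁻¹ ∈ (pullQ Q ψ hadd B).map Q.subtype :=
        ⟨⟨g * (x : N) * g⁻¹, hQ'⟩, hB', rfl⟩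
      rw [hg] at h1
      obtain ⟨a, ha, hax⟩ := h1
      have hax' : g * a * g⁻¹ = g * (x : N) * g⁻¹ := hax
      have e1 : a = (x : N) := by
        have := congrArg (fun t => g⁻¹ * t * g) hax'
        simpa [mul_assoc] using this
      rw [e1] at ha
      obtain ⟨x', hx', hxx⟩ := ha
      have e2 : x' = x := Subtype.ext hxx
      rw [e2] at hx'
      exact hx'
  · rw [← Nat.card_congr ψ]
    exact hS.card

end Cfsg.Agent.Lib.Helper62.SAF
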